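import Cfsg.Agent.Lib.Suz.Solub.Structure

/-!
The families of maximal tori, the classes of 2-elements, and their incidence numbers.
-/

set_option autoImplicit false

namespace Cfsg.Agent.Lib.Suz.Solub

open MulAction Cfsg.Agent.Lib.Suz Cfsg.Agent.Lib.Suz.Classify

variable {F : Type*} [Field F] [Fintype F] [CharP F 2] {m : ℕ}

/-- The maximal tori of order `k`. -/
def Tor (k : ℕ) : Set (Subgroup ↥(Cfsg.Sz F m)) :=
  {A | ∃ z, z ^ 4 ≠ 1 ∧ A = cz z ∧ Nat.card A = k}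

/-- The maximal tori normalised by `x`. -/
def TorAt (x : ↥(Cfsg.Sz F m)) (k : ℕ) : Set (Subgroup ↥(Cfsg.Sz F m)) :=
  {A | A ∈ Tor k ∧ x ∈ Subgroup.normalizer (A : Set ↥(Cfsg.Sz F m))}

theorem normalizer_conj_iff {G : Type*} [Group G] (A : Subgroup G) (g x : G) :
    g * x * g⁻¹ ∈ Subgroup.normalizer ((A.map (MulAut.conj g).toMonoidHom : Subgroup G) : Set G) ↔
      x ∈ Subgroup.normalizer (A : Set G) := by
  rw [← normalizer_map_conj, Subgroup.mem_map_equiv, MulAut.conj_symm_apply]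
  simp [mul_assoc]

variable (c : Ctx F m)

include c

theorem tori_sizes : 2 ^ (2 * m + 1) - 1 ≠ 2 ^ (2 * m + 1) + 2 ^ (m + 1) + 1 ∧
    2 ^ (2 * m + 1) - 1 ≠ 2 ^ (2 * m + 1) - 2 ^ (m + 1) + 1 ∧
    2 ^ (2 * m + 1) + 2 ^ (m + 1) + 1 ≠ 2 ^ (2 * m + 1) - 2 ^ (m + 1) + 1 ∧
    2 * 2 ^ (m + 1) ≤ 2 ^ (2 * m + 1) ∧ 4 ≤ 2 ^ (m + 1) := by
  have hm := c.hm
  have h1 : 2 ^ 2 ≤ 2 ^ (m + 1) := Nat.pow_le_pow_right two_pos (by omega)
  have h2 : 2 * 2 ^ (m + 1) ≤ 2 ^ (2 * m + 1) := by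
    rw [← pow_succ']; exact Nat.pow_le_pow_right two_pos (by omega)
  refine ⟨?_, ?_, ?_, h2, h1⟩ <;> omega

theorem not_free_of_torus (k : ↥(Cfsg.Sz F m)) (h : Fˣ) : ¬ IsFree (k * tHom c h * k⁻¹) := fun hf =>
  hf (k • pt m none) (by rw [mul_smul, mul_smul, inv_smul_smul, tHom_smul_inf])

theorem semi_type {z : ↥(Cfsg.Sz F m)} (hz : z ^ 4 ≠ 1) :
    (IsFree z ∧ (Nat.card (cz z) = 2 ^ (2 * m + 1) + 2 ^ (m + 1) + 1 ∨
      Nat.card (cz z) = 2 ^ (2 * m + 1) - 2 ^ (m + 1) + 1)) ∨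
    (¬ IsFree z ∧ Nat.card (cz z) = 2 ^ (2 * m + 1) - 1 ∧
      ∃ k, cz z = ((tHom c).range).map (MulAut.conj k).toMonoidHom) := by
  rcases semi_cases c hz with hf | ⟨k, h, h1, rfl⟩
  · left
    refine ⟨hf, ?_⟩
    have := card_cz_free c hf
    simpa using this
  · refine Or.inr ⟨not_free_of_torus c k h, ?_, k, by rw [cz_conj, cz_tHom c h1]⟩
    rw [cz_conj, cz_tHom c h1, Subgroup.card_map_of_injective (MulAut.conj k).injective, card_T c, c.hF]

theorem tor_conj {z z' : ↥(Cfsg.Sz F m)} (hz : z ^ 4 ≠ 1) (hz' : z' ^ 4 ≠ 1)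
    (h : Nat.card (cz z) = Nat.card (cz z')) :
    ∃ g, cz z' = (cz z).map (MulAut.conj g).toMonoidHom := by
  obtain ⟨hne1, hne2, hne3, -, -⟩ := tori_sizes c
  have hback : ∀ (A B : Subgroup ↥(Cfsg.Sz F m)) (C : Subgroup ↥(Cfsg.Sz F m)) (a b : ↥(Cfsg.Sz F m)),
      A = C.map (MulAut.conj a).toMonoidHom → B = C.map (MulAut.conj b).toMonoidHom →
      ∃ g, B = A.map (MulAut.conj g).toMonoidHom := fun A B C a b hA hB =>
    ⟨b * a⁻¹, by rw [hA, hB, map_conj_map, inv_mul_cancel_right]⟩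
  rcases semi_type c hz with ⟨hf, hk⟩ | ⟨-, hk, a, ha⟩ <;>
    rcases semi_type c hz' with ⟨hf', hk'⟩ | ⟨-, hk', b, hb⟩
  · obtain ⟨x, y, -, -, hcover, -, -, hx, hy⟩ := exists_tori c
    rcases hcover z hf with ⟨-, a, ha⟩ | ⟨-, a, ha⟩ <;>
      rcases hcover z' hf' with ⟨-, b, hb⟩ | ⟨-, b, hb⟩
    · exact hback _ _ _ a b ha hb
    · exfalso
      rw [ha, hb, Subgroup.card_map_of_injective (MulAut.conj a).injective,
        Subgroup.card_map_of_injective (MulAut.conj b).injective, hx, hy] at h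
      exact hne3 h
    · exfalso
      rw [ha, hb, Subgroup.card_map_of_injective (MulAut.conj a).injective,
        Subgroup.card_map_of_injective (MulAut.conj b).injective, hx, hy] at h
      exact hne3 h.symm
    · exact hback _ _ _ a b ha hb
  · exfalso; rcases hk with e | e <;> rw [e, hk'] at h
    · exact hne1 h.symm
    · exact hne2 h.symm
  · exfalso; rcases hk' with e | e <;> rw [e, hk] at h
    · exact hne1 h
    · exact hne2 h
  · exact hback _ _ _ a b ha hb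

theorem tor_map_mem {k : ℕ} {A : Subgroup ↥(Cfsg.Sz F m)} (hA : A ∈ Tor k) (g : ↥(Cfsg.Sz F m)) :
    A.map (MulAut.conj g).toMonoidHom ∈ Tor k := by
  obtain ⟨z, hz, rfl, hk⟩ := hA
  exact ⟨g * z * g⁻¹, conj_pow_four_ne g hz, (cz_conj g z).symm,
    by rwa [Subgroup.card_map_of_injective (MulAut.conj g).injective]⟩

theorem card_tor {k : ℕ} {z : ↥(Cfsg.Sz F m)} (hz : z ^ 4 ≠ 1) (hk : Nat.card (cz z) = k) :
    Nat.card (Tor (F := F) (m := m) k) * Nat.card (nz z) = Nat.card ↥(Cfsg.Sz F m) := by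
  let f : ↥(Cfsg.Sz F m) → Tor (F := F) (m := m) k := fun g =>
    ⟨(cz z).map (MulAut.conj g).toMonoidHom, tor_map_mem c ⟨z, hz, rfl, hk⟩ g⟩
  refine (card_of_fibers f (Nat.card (nz z)) fun B => ?_).symm
  obtain ⟨z', hz', hB, hk'⟩ := B.2
  obtain ⟨g₀, hg₀⟩ := tor_conj c hz hz' (hk.trans ((congrArg (fun A : Subgroup _ => Nat.card A) hB).symm.trans hk').symm)
  rw [hg₀] at hB
  refine Nat.card_congr ⟨fun g => ⟨g₀⁻¹ * g.1, ?_⟩, fun u => ⟨g₀ * u.1, ?_⟩, fun g => ?_, fun u => ?_⟩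
  · have h1 : (cz z).map (MulAut.conj g.1).toMonoidHom = (cz z).map (MulAut.conj g₀).toMonoidHom :=
      (congrArg Subtype.val g.2).trans hB
    have h2 := congrArg (Subgroup.map (MulAut.conj g₀⁻¹).toMonoidHom) h1
    rw [map_conj_map, map_conj_map, inv_mul_cancel, map_conj_one] at h2
    show g₀⁻¹ * g.1 ∈ nz z
    rw [Subgroup.mem_normalizer_iff]
    intro t
    conv_rhs => rw [← h2, Subgroup.mem_map_equiv, MulAut.conj_symm_apply]
    simp [mul_assoc]
  · refine Subtype.ext (Eq.trans ?_ hB.symm)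
    show (cz z).map (MulAut.conj (g₀ * u.1)).toMonoidHom = _
    rw [← map_conj_map (cz z) u.1 g₀, map_conj_eq_self u.2]
  · exact Subtype.ext (mul_inv_cancel_left _ _)
  · exact Subtype.ext (inv_mul_cancel_left _ _)

theorem card_torAt_conj (x g : ↥(Cfsg.Sz F m)) (k : ℕ) :
    Nat.card (TorAt (g * x * g⁻¹) k) = Nat.card (TorAt x k) := by
  refine (Nat.card_congr ⟨fun A => ⟨A.1.map (MulAut.conj g).toMonoidHom, tor_map_mem c A.2.1 g,
      (normalizer_conj_iff A.1 g x).2 A.2.2⟩,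
    fun B => ⟨B.1.map (MulAut.conj g⁻¹).toMonoidHom, tor_map_mem c B.2.1 g⁻¹, by
      have h := (normalizer_conj_iff B.1 g⁻¹ (g * x * g⁻¹)).2 B.2.2
      rwa [show g⁻¹ * (g * x * g⁻¹) * g⁻¹⁻¹ = x by group] at h⟩,
    fun A => Subtype.ext ?_, fun B => Subtype.ext ?_⟩).symm
  · show (A.1.map (MulAut.conj g).toMonoidHom).map (MulAut.conj g⁻¹).toMonoidHom = A.1
    rw [map_conj_map, inv_mul_cancel, map_conj_one]
  · show (B.1.map (MulAut.conj g⁻¹).toMonoidHom).map (MulAut.conj g).toMonoidHom = B.1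
    rw [map_conj_map, mul_inv_cancel, map_conj_one]

omit [CharP F 2] c in
theorem torAt_inv (x : ↥(Cfsg.Sz F m)) (k : ℕ) : TorAt x⁻¹ k = TorAt x k := by
  ext A
  show _ ∧ _ ↔ _ ∧ _
  rw [inv_mem_iff]

theorem order_four_fst {a b : F} (h : orderOf (uG c a b) = 4) : a ≠ 0 := fun e => by
  have h2 : uG c a b ^ 2 = 1 := by rw [pow_two, uG_sq, e, zero_mul, uG_zero]
  have := orderOf_dvd_of_pow_eq_one h2
  rw [h] at this
  omega

theorem norm_fst {a b : F} (ha : a ≠ 0) :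
    IsConj (uG c a b) (uG c 1 0) ∨ IsConj (uG c a b) (uG c 1 0)⁻¹ := by
  classical
  obtain ⟨⟨h, hh⟩, -, -⟩ := theta_units_surj c a⁻¹ (inv_ne_zero ha)
  have h1 : IsConj (uG c a b) (uG c 1 ((h : F) ^ 2 * th F m h * b)) :=
    isConj_iff.2 ⟨tHom c h, by rw [tHom_conj_uG, hh, inv_mul_cancel₀ ha]⟩
  generalize (h : F) ^ 2 * th F m h * b = b' at h1
  let L : F →+ F :=
    { toFun := fun x => th F m x + x
      map_zero' := by simp
      map_add' := fun x y => by rw [map_add]; abel }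
  have hconj : ∀ x : F, uG c x 0 * uG c 1 b' * (uG c x 0)⁻¹ = uG c 1 (b' + L x) := by
    intro x
    rw [mul_inv_eq_iff_eq_mul, uG_mul, uG_mul, map_one, add_comm x 1]
    congr 1
    show 0 + b' + 1 * th F m x = b' + (th F m x + x) + 0 + x * 1
    linear_combination - x * (two0 (F := F))
  have h1L : ∀ x, L x ≠ 1 := by
    intro x hx
    have e : th F m x = 1 + x := by
      have hx' : th F m x + x = 1 := hx
      linear_combination hx' - x * (two0 (F := F))
    have h2 := c.tits x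
    rw [e, map_add, map_one, e] at h2
    have hxx : x = 0 ∨ x = 1 := by
      have h3 : x * (x - 1) = 0 := by linear_combination - h2 + (two0 (F := F))
      rcases mul_eq_zero.1 h3 with h | h
      · exact Or.inl h
      · exact Or.inr (sub_eq_zero.1 h)
    rcases hxx with rfl | rfl
    · rw [map_zero, add_zero] at e; exact zero_ne_one e
    · rw [map_one, add_self0] at e; exact one_ne_zero e
  have hker : L.ker ≤ AddSubgroup.zmultiples (1 : F) := by
    intro x hx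
    have hx' : th F m x + x = 0 := hx
    rcases tits_fixed c.tits (x := x) (by linear_combination hx' - x * (two0 (F := F))) with rfl | rfl
    · exact zero_mem _
    · exact AddSubgroup.mem_zmultiples _
  have hidx : L.range.index ≤ 2 := by
    have hk : Nat.card L.ker ≤ 2 := by
      refine (AddSubgroup.card_le_of_le hker).trans ?_
      rw [Nat.card_zmultiples]
      exact Nat.le_of_dvd two_pos (addOrderOf_dvd_of_nsmul_eq_zero (by
        rw [two_nsmul]; exact add_self0 1))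
    have h2 := L.range.card_mul_index
    have h3 := L.ker.card_mul_index
    rw [AddSubgroup.index_ker] at h3
    have hpos : 0 < Nat.card L.range := Nat.card_pos
    nlinarith
  have hcov : ∀ y : F, y ∈ L.range ∨ y + 1 ∈ L.range := by
    intro y
    by_contra hcon
    rw [not_or] at hcon
    have h1' : (1 : F) ∉ L.range := fun ⟨x, hx⟩ => h1L x hx
    have h3 : ({(QuotientAddGroup.mk (0 : F) : F ⧸ L.range), QuotientAddGroup.mk (1 : F),
        QuotientAddGroup.mk y} : Finset (F ⧸ L.range)).card = 3 := by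
      rw [Finset.card_insert_of_notMem, Finset.card_pair]
      · intro e
        refine hcon.2 ?_
        have := QuotientAddGroup.eq.1 e
        rwa [CharTwo.neg_eq, add_comm] at this
      · simp only [Finset.mem_insert, Finset.mem_singleton, not_or]
        refine ⟨fun e => h1' ?_, fun e => hcon.1 ?_⟩
        · have := QuotientAddGroup.eq.1 e; simpa using this
        · have := QuotientAddGroup.eq.1 e; simpa using this
    haveI : Fintype (F ⧸ L.range) := Fintype.ofFinite _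
    have := Finset.card_le_univ ({(QuotientAddGroup.mk (0 : F) : F ⧸ L.range), QuotientAddGroup.mk (1 : F),
        QuotientAddGroup.mk y} : Finset (F ⧸ L.range))
    rw [h3, ← Nat.card_eq_fintype_card, ← AddSubgroup.index_eq_card] at this
    omega
  rcases hcov b' with ⟨x, hx⟩ | ⟨x, hx⟩
  · left
    refine h1.trans (isConj_iff.2 ⟨uG c x 0, ?_⟩)
    rw [hconj, hx, add_self0]
  · right
    refine h1.trans (isConj_iff.2 ⟨uG c x 0, ?_⟩)
    rw [hconj, hx, ← add_assoc, add_self0, zero_add, uG_inv, map_one, mul_one, zero_add]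

theorem conj_class {w : ↥(Cfsg.Sz F m)} :
    (orderOf w = 2 → IsConj w (uG c 0 1)) ∧
    (orderOf w = 4 → IsConj w (uG c 1 0) ∨ IsConj w (uG c 1 0)⁻¹) := by
  have key : (orderOf w = 2 ∨ orderOf w = 4) → ∃ a b, IsConj w (uG c a b) ∧ orderOf (uG c a b) = orderOf w := by
    intro h
    obtain ⟨k, a, b, hab⟩ := uni_conj c (x := w) (by
      rw [← orderOf_dvd_iff_pow_eq_one]; rcases h with e | e <;> rw [e]; norm_num)
    refine ⟨a, b, isConj_iff.2 ⟨k⁻¹, by rw [inv_inv, hab]⟩, ?_⟩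
    have := MulEquiv.orderOf_eq (MulAut.conj k⁻¹) w
    rwa [MulAut.conj_apply, inv_inv, hab] at this
  constructor
  · intro h2
    obtain ⟨a, b, hconj, hord⟩ := key (Or.inl h2)
    rw [h2] at hord
    obtain ⟨b', hb'⟩ := zSub_of_order_two c (uG_mem_uSub c a b)
      (by rw [← pow_two, ← hord, pow_orderOf_eq_one])
    obtain ⟨rfl, rfl⟩ := uG_inj c hb'
    have hb : b ≠ 0 := fun e => by rw [e, uG_zero, orderOf_one] at hord; omega
    obtain ⟨-, ⟨h, hh⟩, -⟩ := theta_units_surj c b⁻¹ (inv_ne_zero hb)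
    exact hconj.trans (isConj_iff.2 ⟨tHom c h, by rw [tHom_conj_uG, mul_zero, hh, inv_mul_cancel₀ hb]⟩)
  · intro h4
    obtain ⟨a, b, hconj, hord⟩ := key (Or.inr h4)
    rcases norm_fst c (b := b) (order_four_fst c (hord.trans h4)) with h | h
    · exact Or.inl (hconj.trans h)
    · exact Or.inr (hconj.trans h)

theorem card_torAt_const {x w : ↥(Cfsg.Sz F m)} (hx : orderOf x = 2 ∨ orderOf x = 4)
    (hw : orderOf w = orderOf x) (k : ℕ) : Nat.card (TorAt w k) = Nat.card (TorAt x k) := by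
  have hc : ∀ u v : ↥(Cfsg.Sz F m), IsConj u v → Nat.card (TorAt v k) = Nat.card (TorAt u k) := by
    intro u v huv
    obtain ⟨g, rfl⟩ := isConj_iff.1 huv
    exact card_torAt_conj c u g k
  rcases hx with h | h <;> rw [h] at hw
  · rw [← hc _ _ ((conj_class c).1 hw), ← hc _ _ ((conj_class c).1 h)]
  · rcases (conj_class c).2 hw with e | e <;> rcases (conj_class c).2 h with e' | e' <;>
      rw [← hc _ _ e, ← hc _ _ e'] <;> simp only [torAt_inv]

theorem card_order_uSub :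
    Nat.card {u : uSub c // orderOf (u : ↥(Cfsg.Sz F m)) = 2} = Fintype.card F - 1 ∧
    Nat.card {u : uSub c // orderOf (u : ↥(Cfsg.Sz F m)) = 4} = Fintype.card F ^ 2 - Fintype.card F := by
  classical
  let e : {p : F × F // p.1 = 0 ∧ p.2 ≠ 0} → {u : uSub c // orderOf (u : ↥(Cfsg.Sz F m)) = 2} := fun p =>
    ⟨⟨uG c p.1.1 p.1.2, uG_mem_uSub c _ _⟩, orderOf_eq_prime
      (by rw [p.2.1, pow_two, uG_sq, zero_mul, uG_zero])
      (fun e => p.2.2 (uG_inj c (e.trans (uG_zero c).symm)).2)⟩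
  have he : Function.Bijective e := by
    refine ⟨fun p p' h => Subtype.ext ?_, fun u => ?_⟩
    · obtain ⟨h1, h2⟩ := uG_inj c (congrArg (fun u : {u : uSub c // _} => ((u.1 : ↥(Cfsg.Sz F m)))) h)
      exact Prod.ext h1 h2
    · obtain ⟨⟨_, a, b, rfl⟩, hu⟩ := u
      simp only at hu
      obtain ⟨b', hb'⟩ := zSub_of_order_two c (uG_mem_uSub c a b)
        (by rw [← pow_two, ← hu, pow_orderOf_eq_one])
      obtain ⟨rfl, rfl⟩ := uG_inj c hb'
      exact ⟨⟨(0, b), rfl, fun (e : b = 0) => by subst e; rw [uG_zero, orderOf_one] at hu; omega⟩, rfl⟩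
  let e4 : {p : F × F // p.1 ≠ 0} → {u : uSub c // orderOf (u : ↥(Cfsg.Sz F m)) = 4} := fun p =>
    ⟨⟨uG c p.1.1 p.1.2, uG_mem_uSub c _ _⟩, by
      refine orderOf_eq_prime_pow (p := 2) (n := 1) ?_ (four_of_fix_inf c (uG_mem_uSub c _ _))
      intro h
      rw [pow_one, pow_two, uG_sq, ← uG_zero c] at h
      exact mul_ne_zero p.2 ((map_ne_zero _).2 p.2) (uG_inj c h).2⟩
  have he4 : Function.Bijective e4 := by
    refine ⟨fun p p' h => Subtype.ext ?_, fun u => ?_⟩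
    · obtain ⟨h1, h2⟩ := uG_inj c (congrArg (fun u : {u : uSub c // _} => ((u.1 : ↥(Cfsg.Sz F m)))) h)
      exact Prod.ext h1 h2
    · obtain ⟨⟨_, a, b, rfl⟩, hu⟩ := u
      exact ⟨⟨(a, b), order_four_fst c hu⟩, rfl⟩
  constructor
  · rw [← Nat.card_congr (Equiv.ofBijective e he),
      Nat.card_congr (⟨fun p => ⟨p.1.2, p.2.2⟩, fun b => ⟨(0, b.1), rfl, b.2⟩,
        fun p => Subtype.ext (Prod.ext p.2.1.symm rfl), fun b => rfl⟩ :
        {p : F × F // p.1 = 0 ∧ p.2 ≠ 0} ≃ {b : F // b ≠ 0}),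
      Nat.card_eq_fintype_card, Fintype.card_subtype_compl, Fintype.card_subtype_eq]
  · rw [← Nat.card_congr (Equiv.ofBijective e4 he4),
      Nat.card_congr (⟨fun p => (⟨p.1.1, p.2⟩, p.1.2), fun q => ⟨(q.1.1, q.2), q.1.2⟩,
        fun p => rfl, fun q => rfl⟩ : {p : F × F // p.1 ≠ 0} ≃ {a : F // a ≠ 0} × F),
      Nat.card_prod, Nat.card_eq_fintype_card, Nat.card_eq_fintype_card, Fintype.card_subtype_compl,
      Fintype.card_subtype_eq, Nat.sub_mul, one_mul, sq]

theorem card_order (d : ℕ) (hd : d = 2 ∨ d = 4) :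
    Nat.card {w : ↥(Cfsg.Sz F m) // orderOf w = d} =
      (Fintype.card F ^ 2 + 1) * Nat.card {u : uSub c // orderOf (u : ↥(Cfsg.Sz F m)) = d} := by
  classical
  haveI : MulAction.IsPretransitive ↥(Cfsg.Sz F m) (Om F m) := pretrans c
  choose g hg using fun o : Om F m => MulAction.exists_smul_eq ↥(Cfsg.Sz F m) (pt (F := F) m none) o
  have hd4 : ∀ w : ↥(Cfsg.Sz F m), orderOf w = d → w ^ 4 = 1 ∧ w ≠ 1 := fun w hw =>
    ⟨orderOf_dvd_iff_pow_eq_one.1 (by rcases hd with rfl | rfl <;> rw [hw]; norm_num),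
      fun e => by rw [e, orderOf_one] at hw; omega⟩
  let f : Om F m × {u : uSub c // orderOf (u : ↥(Cfsg.Sz F m)) = d} → {w : ↥(Cfsg.Sz F m) // orderOf w = d} :=
    fun p => ⟨g p.1 * (p.2.1 : ↥(Cfsg.Sz F m)) * (g p.1)⁻¹, by
      rw [← MulAut.conj_apply, MulEquiv.orderOf_eq, p.2.2]⟩
  have hfix : ∀ p, (f p).1 • p.1 = p.1 := fun p => by
    show (g p.1 * (p.2.1 : ↥(Cfsg.Sz F m)) * (g p.1)⁻¹) • p.1 = p.1
    rw [mul_smul, mul_smul]
    conv_lhs => rw [show (g p.1)⁻¹ • p.1 = pt (F := F) m none from inv_smul_eq_iff.2 (hg p.1).symm]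
    rw [mem_bor_of_uSub c p.2.1.2, hg]
  have hf : Function.Bijective f := by
    constructor
    · intro p p' e
      have ho : p.1 = p'.1 := by
        obtain ⟨o, -, huniq⟩ := uni_fix c (hd4 _ (f p).2).1 (hd4 _ (f p).2).2
        exact (huniq _ (hfix p)).trans (huniq _ (by rw [e]; exact hfix p')).symm
      obtain ⟨o, u⟩ := p
      obtain ⟨o', u'⟩ := p'
      subst ho
      refine Prod.ext rfl (Subtype.ext (Subtype.ext ?_))
      exact mul_left_cancel (mul_right_cancel (congrArg Subtype.val e))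
    · rintro ⟨w, hw⟩
      obtain ⟨o, ho, -⟩ := uni_fix c (hd4 w hw).1 (hd4 w hw).2
      have hu : (g o)⁻¹ * w * g o ∈ uSub c := by
        refine uni_mem_uSub c ?_ (by rw [mul_smul, mul_smul, hg, ho, inv_smul_eq_iff, hg])
        have := conj_pow (a := (g o)⁻¹) (b := w) (i := 4)
        rw [inv_inv] at this
        rw [this, (hd4 w hw).1, mul_one, inv_mul_cancel]
      refine ⟨⟨o, ⟨_, hu⟩, ?_⟩, Subtype.ext ?_⟩
      · have := MulEquiv.orderOf_eq (MulAut.conj (g o)⁻¹) w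
        rwa [MulAut.conj_apply, inv_inv, hw] at this
      · show g o * ((g o)⁻¹ * w * g o) * (g o)⁻¹ = w
        group
  rw [← Nat.card_congr (Equiv.ofBijective f hf), Nat.card_prod, card_Om]

/-- Double counting of pairs (torus, element of order `d` normalising it). -/
theorem incidence {k d : ℕ} (hd : d = 2 ∨ d = 4) {x z : ↥(Cfsg.Sz F m)} (hx : orderOf x = d)
    (hz : z ^ 4 ≠ 1) (hk : Nat.card (cz z) = k) :
    Nat.card (TorAt x k) * Nat.card {w : ↥(Cfsg.Sz F m) // orderOf w = d} * Nat.card (nz z) =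
      Nat.card ↥(Cfsg.Sz F m) * Nat.card {y // y ∈ nz z ∧ orderOf y = d} := by
  classical
  let W := {w : ↥(Cfsg.Sz F m) // orderOf w = d}
  let T := Tor (F := F) (m := m) k
  let P := {p : T × W // (p.2 : ↥(Cfsg.Sz F m)) ∈ Subgroup.normalizer ((p.1 : Subgroup ↥(Cfsg.Sz F m)) : Set _)}
  have hP1 : Nat.card P = Nat.card W * Nat.card (TorAt x k) := by
    refine card_of_fibers (fun p : P => p.1.2) _ fun w => ?_
    rw [← card_torAt_const c (x := x) (w := w.1) (hx ▸ hd) (w.2.trans hx.symm) k]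
    refine Nat.card_congr ⟨fun p => ⟨(p.1.1.1 : Subgroup _), p.1.1.1.2, ?_⟩,
      fun A => ⟨⟨(⟨A.1, A.2.1⟩, w), A.2.2⟩, rfl⟩, fun p => ?_, fun A => rfl⟩
    · have h := p.1.2
      rwa [show p.1.1.2 = w from p.2] at h
    · obtain ⟨⟨⟨A, w'⟩, hA⟩, hw'⟩ := p
      have e : w' = w := hw'
      subst e
      rfl
  have hP2 : Nat.card P = Nat.card T * Nat.card {y // y ∈ nz z ∧ orderOf y = d} := by
    refine card_of_fibers (fun p : P => p.1.1) _ fun A => ?_
    obtain ⟨z', hz', hA, hk'⟩ := A.2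
    obtain ⟨g, hg⟩ := tor_conj c hz hz'
      (hk.trans ((congrArg (fun A : Subgroup _ => Nat.card A) hA).symm.trans hk').symm)
    rw [hg] at hA
    refine Nat.card_congr ⟨fun p => ⟨g⁻¹ * p.1.1.2.1 * g, ?_, ?_⟩,
      fun y => ⟨⟨(A, ⟨g * y.1 * g⁻¹, ?_⟩), ?_⟩, rfl⟩, fun p => ?_, fun y => ?_⟩
    · refine (normalizer_conj_iff (cz z) g _).1 ?_
      have h := p.1.2
      rw [show p.1.1.1 = A from p.2, hA] at h
      convert h using 1
      group
    · have := MulEquiv.orderOf_eq (MulAut.conj g⁻¹) p.1.1.2.1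
      rwa [MulAut.conj_apply, inv_inv, p.1.1.2.2] at this
    · rw [← MulAut.conj_apply, MulEquiv.orderOf_eq, y.2.2]
    · show g * y.1 * g⁻¹ ∈ Subgroup.normalizer ((A.1 : Subgroup ↥(Cfsg.Sz F m)) : Set _)
      rw [hA]
      exact (normalizer_conj_iff (cz z) g y.1).2 y.2.1
    · obtain ⟨⟨⟨A', w'⟩, hA'⟩, hp⟩ := p
      have e : A' = A := hp
      subst e
      refine Subtype.ext (Subtype.ext (Prod.ext rfl (Subtype.ext ?_)))
      show g * (g⁻¹ * w'.1 * g) * g⁻¹ = w'.1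
      group
    · refine Subtype.ext ?_
      show g⁻¹ * (g * y.1 * g⁻¹) * g = y.1
      group
  rw [← card_tor c hz hk]
  calc _ = Nat.card P * Nat.card (nz z) := by rw [hP1]; ring
    _ = _ := by rw [hP2]; ring

end Cfsg.Agent.Lib.Suz.Solub
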