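import Cfsg.Agent.Lib.Suz.Solub.Family
import Cfsg.Agent.Lib.Suz.Bridge

/-!
The solubilisers of the elements of `Sz(q)`, `q = 2 ^ p` with `p` prime.
-/

set_option autoImplicit false

namespace Cfsg.Agent.Lib.Suz.Solub

open MulAction Cfsg.Agent.Lib.Suz Cfsg.Agent.Lib.Suz.Classify

variable {F : Type*} [Field F] [Fintype F] [CharP F 2] {m : ℕ}

/-- The solubiliser. -/
def Sol (x : ↥(Cfsg.Sz F m)) : Set ↥(Cfsg.Sz F m) :=
  {y | Group.IsSolvable ↥(Subgroup.closure ({x, y} : Set ↥(Cfsg.Sz F m)))}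

theorem solvable_of_le {G : Type*} [Group G] {H K : Subgroup G} (h : H ≤ K)
    (hK : Group.IsSolvable K) : Group.IsSolvable H :=
  Group.isSolvable_of_isSolvable_injective (Subgroup.inclusion_injective h)

theorem solvable_map_iff {G G' : Type*} [Group G] [Group G'] (f : G ≃* G') (H : Subgroup G) :
    Group.IsSolvable (H.map f.toMonoidHom) ↔ Group.IsSolvable H := by
  let e : H ≃* H.map f.toMonoidHom := H.equivMapOfInjective f.toMonoidHom f.injective
  refine ⟨fun h => ?_, fun h => ?_⟩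
  · exact Group.isSolvable_of_surjective (f := e.symm.toMonoidHom) (fun y => e.symm.surjective y)
  · exact Group.isSolvable_of_surjective (f := e.toMonoidHom) (fun y => e.surjective y)

theorem card_sol_equiv {G G' : Type*} [Group G] [Group G'] (f : G ≃* G') (x : G) :
    Nat.card {y : G' // Group.IsSolvable ↥(Subgroup.closure ({f x, y} : Set G'))} =
      Nat.card {y : G // Group.IsSolvable ↥(Subgroup.closure ({x, y} : Set G))} := by
  refine (Nat.card_congr (f.toEquiv.subtypeEquiv fun y => ?_)).symm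
  rw [← solvable_map_iff f, MonoidHom.map_closure, Set.image_pair]
  rfl

variable (c : Ctx F m)

include c

theorem not_solvable : ¬ Group.IsSolvable ↥(Cfsg.Sz F m) := by
  intro hs
  haveI := isSimple c
  have hcomm := IsSimpleGroup.comm_iff_isSolvable.2 hs
  obtain ⟨k0, hk0, hk1⟩ := c.exists_k0
  have hk : Units.mk0 k0 hk0 ≠ 1 := fun e => hk1 (congrArg Units.val e)
  have hall : wG c ∈ cz (tHom c (Units.mk0 k0 hk0)) :=
    Subgroup.mem_centralizer_singleton_iff.2 (hcomm _ _)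
  obtain ⟨h, hh⟩ := cz_torus c hk hall
  have h2 := congrArg (fun g : ↥(Cfsg.Sz F m) => g • pt (F := F) m none) hh
  simp only [tHom_smul_inf, wG_smul_inf] at h2
  exact Option.some_ne_none _ ((pt_bij m).1 h2).symm

theorem solvable_bor : Group.IsSolvable (bor F m) := by
  haveI : Fact (Nat.Prime 2) := ⟨Nat.prime_two⟩
  have hp : IsPGroup 2 (tcoord c).ker := fun g => ⟨2, by
    have h := four_of_fix_inf c ((tcoord_eq_one_iff c g.1).1 g.2)
    exact Subtype.ext (Subtype.ext (by simpa using h))⟩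
  haveI := hp.isNilpotent
  haveI : Group.IsSolvable (tcoord c).ker := inferInstance
  exact Group.isSolvable_of_ker_le_range (tcoord c).ker.subtype (tcoord c) (by simp)

theorem solvable_stab (o : Om F m) :
    Group.IsSolvable (MulAction.stabilizer ↥(Cfsg.Sz F m) o) := by
  obtain ⟨g, rfl⟩ := exists_smul_inf c o
  haveI := solvable_bor c
  let e : bor F m ≃* MulAction.stabilizer ↥(Cfsg.Sz F m) (g • pt (F := F) m none) :=
    (MulAction.stabilizerEquivStabilizerOfOrbitRel (MulAction.orbitRel_apply.2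
      ⟨g, rfl⟩ : MulAction.orbitRel ↥(Cfsg.Sz F m) (Om F m) (g • pt m none) (pt m none))).symm
  exact Group.isSolvable_of_surjective (f := e.toMonoidHom) e.surjective

theorem solvable_nz {z : ↥(Cfsg.Sz F m)} (hz : z ^ 4 ≠ 1) : Group.IsSolvable (nz z) := by
  haveI : Fact (Nat.Prime 2) := ⟨Nat.prime_two⟩
  haveI := Subgroup.normal_in_normalizer (H := cz z)
  have hA : Group.IsSolvable ((cz z).subgroupOf (nz z)) := Group.isSolvable_of_comm fun a b =>
    Subtype.ext (Subtype.ext (cz_comm c hz (Subgroup.mem_subgroupOf.1 a.2) (Subgroup.mem_subgroupOf.1 b.2)))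
  have hp : IsPGroup 2 ((nz z) ⧸ ((cz z).subgroupOf (nz z))) := by
    rcases index_two_or_four c hz with h | h <;> rw [Subgroup.index_eq_card] at h
    · exact IsPGroup.of_card (n := 1) (h.trans (pow_one 2).symm)
    · exact IsPGroup.of_card (n := 2) h
  haveI := hp.isNilpotent
  exact (Group.isSolvable_iff_subgroup_quotient ((cz z).subgroupOf (nz z))).2 ⟨hA, inferInstance⟩

theorem mem_sol_iff (hp : (2 * m + 1).Prime) {x : ↥(Cfsg.Sz F m)} (y : ↥(Cfsg.Sz F m)) :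
    y ∈ Sol x ↔ (∃ o : Om F m, x • o = o ∧ y • o = o) ∨ ∃ z, z ^ 4 ≠ 1 ∧ x ∈ nz z ∧ y ∈ nz z := by
  constructor
  · intro hy
    set M := Subgroup.closure ({x, y} : Set ↥(Cfsg.Sz F m)) with hM
    have hM' : M ≠ ⊤ := fun e => not_solvable c (by
      have h : Group.IsSolvable M := hy
      rw [e] at h
      exact Group.isSolvable_of_surjective
        (f := (Subgroup.topEquiv (G := ↥(Cfsg.Sz F m))).toMonoidHom)
        (fun y => (Subgroup.topEquiv (G := ↥(Cfsg.Sz F m))).surjective y))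
    have hx : x ∈ M := Subgroup.subset_closure (Or.inl rfl)
    have hy' : y ∈ M := Subgroup.subset_closure (Or.inr rfl)
    rcases concl_main c M hM' with ⟨P, hP⟩ | ⟨U, hU, hn, hMU⟩ | ⟨K, _, _, k, h1, h2, -, h3, -⟩
    · left
      obtain ⟨g, hg⟩ := sylow_conj c P
      refine ⟨g • pt m none, ?_⟩
      have key : ∀ w ∈ M, w • g • pt (F := F) m none = g • pt m none := fun w hw => by
        have hw' := hP hw
        rw [hg, ← normalizer_map_conj, Subgroup.mem_map_equiv, MulAut.conj_symm_apply,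
          mem_normalizer_uSub_iff c, mul_smul, mul_smul, inv_smul_eq_iff] at hw'
        exact hw'
      exact ⟨key x hx, key y hy'⟩
    · right
      rcases cyclic_sub_cases c hU hn with ⟨k, rfl⟩ | ⟨z, hz, rfl⟩
      · obtain ⟨k0, hk0, hk1⟩ := c.exists_k0
        have hk : Units.mk0 k0 hk0 ≠ 1 := fun e => hk1 (congrArg Units.val e)
        have h4 : tHom c (Units.mk0 k0 hk0) ^ 4 ≠ 1 := fun e => hk (by
          have e' : Units.mk0 k0 hk0 ^ 4 = 1 := tHom_injective c (by rw [map_pow, e, map_one])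
          have e'' : k0 ^ 4 = 1 := by simpa using congrArg Units.val e'
          refine Units.ext (sq_eq_one' (sq_eq_one' ?_))
          rw [← pow_mul]; exact e'')
        refine ⟨k * tHom c (Units.mk0 k0 hk0) * k⁻¹, conj_pow_four_ne k h4, ?_⟩
        rw [nz, cz_conj, cz_tHom c hk]
        exact ⟨hMU hx, hMU hy'⟩
      · have hz4 : z ^ 4 ≠ 1 := fun e => by
          obtain ⟨o, ho, -⟩ := uni_fix c e (isFree_ne_one hz)
          exact hz o ho
        exact ⟨z, hz4, hMU hx, hMU hy'⟩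
    · exfalso
      rcases hp.eq_one_or_self_of_dvd _ h3 with h | h <;> omega
  · rintro (⟨o, hx, hy⟩ | ⟨z, hz, hx, hy⟩)
    · refine solvable_of_le ((Subgroup.closure_le _).2 ?_) (solvable_stab c o)
      rintro _ (rfl | rfl)
      exacts [hx, hy]
    · refine solvable_of_le ((Subgroup.closure_le _).2 ?_) (solvable_nz c hz)
      rintro _ (rfl | rfl)
      exacts [hx, hy]

theorem card_sol_conj (g x : ↥(Cfsg.Sz F m)) :
    Nat.card (Sol (g * x * g⁻¹)) = Nat.card (Sol x) := card_sol_equiv (MulAut.conj g) x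

theorem card_sol_free (hp : (2 * m + 1).Prime) {x : ↥(Cfsg.Sz F m)} (hx : IsFree x) :
    Nat.card (Sol x) = 4 * Nat.card (cz x) := by
  have hx4 : x ^ 4 ≠ 1 := fun e => by
    obtain ⟨o, ho, -⟩ := uni_fix c e (isFree_ne_one hx)
    exact hx o ho
  have hset : Sol x = (nz x : Set ↥(Cfsg.Sz F m)) := by
    ext y
    rw [mem_sol_iff c hp]
    constructor
    · rintro (⟨o, ho, -⟩ | ⟨z, hz, hxz, hyz⟩)
      · exact absurd ho (hx o)
      · show y ∈ Subgroup.normalizer (cz x : Set ↥(Cfsg.Sz F m))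
        rwa [cz_eq_of_semi_mem c hz hxz hx4]
    · intro hy
      exact Or.inr ⟨x, hx4, Subgroup.le_normalizer (mem_cz_self x), hy⟩
  rw [hset]
  rcases semi_normalizer c hx4 with ⟨-, h⟩ | ⟨hn, -⟩
  · exact h
  · exact absurd hx hn

theorem card_sol_torus (hp : (2 * m + 1).Prime) {h : Fˣ} (h1 : h ≠ 1) :
    Nat.card (Sol (tHom c h)) = 2 * (Fintype.card F) ^ 2 * (Fintype.card F - 1) := by
  set x := tHom c h with hx
  have hx4 : x ^ 4 ≠ 1 := fun e => h1 (by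
    have e' : h ^ 4 = 1 := tHom_injective c (by rw [map_pow, ← hx, e, map_one])
    have e'' : (h : F) ^ 4 = 1 := by simpa using congrArg Units.val e'
    refine Units.ext (sq_eq_one' (sq_eq_one' ?_))
    rw [← pow_mul]; exact e'')
  have hxA : x ∈ cz x := mem_cz_self x
  have hT : cz x = (tHom c).range := cz_tHom c h1
  have hfree : ¬ IsFree x := fun hf => hf (pt m none) (tHom_smul_inf c h)
  set S1 := MulAction.stabilizer ↥(Cfsg.Sz F m) (pt (F := F) m none) with hS1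
  set S2 := MulAction.stabilizer ↥(Cfsg.Sz F m) (pt (F := F) m (some (0, 0))) with hS2
  have hset : Sol x = ((S1 : Set ↥(Cfsg.Sz F m)) ∪ S2) ∪ (nz x : Set ↥(Cfsg.Sz F m)) := by
    ext y
    rw [mem_sol_iff c hp]
    constructor
    · rintro (⟨o, ho, hyo⟩ | ⟨z, hz, hxz, hyz⟩)
      · rcases tHom_fix c h1 ho with rfl | rfl
        · exact Or.inl (Or.inl hyo)
        · exact Or.inl (Or.inr hyo)
      · right
        show y ∈ Subgroup.normalizer (cz x : Set ↥(Cfsg.Sz F m))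
        rwa [cz_eq_of_semi_mem c hz hxz hx4]
    · rintro ((hy | hy) | hy)
      · exact Or.inl ⟨_, tHom_smul_inf c h, hy⟩
      · exact Or.inl ⟨_, tHom_smul_zero c h, hy⟩
      · exact Or.inr ⟨x, hx4, Subgroup.le_normalizer hxA, hy⟩
  have hT1 : ∀ y ∈ cz x, y ∈ S1 ∧ y ∈ S2 := fun y hy => by
    rw [hT] at hy
    obtain ⟨k, rfl⟩ := hy
    exact ⟨tHom_smul_inf c k, tHom_smul_zero c k⟩
  have hN1 : ∀ y ∈ nz x, y ∈ S1 → y ∈ cz x := fun y hy hy1 => by_contra fun hyA =>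
    no_common_fix c hx4 hy hyA hxA (ne_one_of_pow_four hx4) hy1 (tHom_smul_inf c h)
  have hN2 : ∀ y ∈ nz x, y ∈ S2 → y ∈ cz x := by
    intro y hy hy2
    have hw : wG c ∈ nz x := by
      show wG c ∈ Subgroup.normalizer (cz x : Set ↥(Cfsg.Sz F m))
      rw [← mem_normalizer_cz_iff c hx4 hxA (ne_one_of_pow_four hx4), hT, wG_inv, hx, wG_conj_tHom]
      exact ⟨_, rfl⟩
    have h' := hN1 (wG c * y * wG c) (mul_mem (mul_mem hw hy) hw) (by
      show (wG c * y * wG c) • pt (F := F) m none = pt m none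
      rw [mul_smul, mul_smul, wG_smul_inf, show y • pt (F := F) m (some (0, 0)) = pt m (some (0, 0)) from hy2,
        wG_smul_zero])
    have h'' := (Subgroup.mem_normalizer_iff.1 hw (wG c * y * wG c)).1 h'
    rwa [show wG c * (wG c * y * wG c) * (wG c)⁻¹ = wG c * wG c * y by group, wG_mul_self, one_mul] at h''
  have hi1 : (S1 : Set ↥(Cfsg.Sz F m)) ∩ S2 = (cz x : Set ↥(Cfsg.Sz F m)) := by
    ext y
    refine ⟨fun hy => ?_, fun hy => hT1 y hy⟩
    show y ∈ cz x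
    rw [hT]
    obtain ⟨k, hk⟩ := (two_point_iff c y).1 ⟨hy.1, hy.2⟩
    exact ⟨k, hk.symm⟩
  have hi2 : ((S1 : Set ↥(Cfsg.Sz F m)) ∪ S2) ∩ (nz x : Set ↥(Cfsg.Sz F m)) =
      (cz x : Set ↥(Cfsg.Sz F m)) := by
    ext y
    refine ⟨?_, fun hy => ⟨Or.inl (hT1 y hy).1, Subgroup.le_normalizer hy⟩⟩
    rintro ⟨hy | hy, hyN⟩
    · exact hN1 y hyN hy
    · exact hN2 y hyN hy
  have a1 := Set.ncard_union_add_ncard_inter (S1 : Set ↥(Cfsg.Sz F m)) (S2 : Set ↥(Cfsg.Sz F m))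
  have a2 := Set.ncard_union_add_ncard_inter ((S1 : Set ↥(Cfsg.Sz F m)) ∪ S2) (nz x : Set ↥(Cfsg.Sz F m))
  rw [hi1] at a1
  rw [hi2] at a2
  have n1 : (S1 : Set ↥(Cfsg.Sz F m)).ncard = Fintype.card F ^ 2 * (Fintype.card F - 1) :=
    (Nat.card_coe_set_eq _).symm.trans (card_stab c _)
  have n2 : (S2 : Set ↥(Cfsg.Sz F m)).ncard = Fintype.card F ^ 2 * (Fintype.card F - 1) :=
    (Nat.card_coe_set_eq _).symm.trans (card_stab c _)
  have n3 : (nz x : Set ↥(Cfsg.Sz F m)).ncard = 2 * Nat.card (cz x) := by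
    refine (Nat.card_coe_set_eq _).symm.trans ?_
    rcases semi_normalizer c hx4 with ⟨hf, -⟩ | ⟨-, h⟩
    · exact absurd hf hfree
    · exact h
  have n4 : (cz x : Set ↥(Cfsg.Sz F m)).ncard = Nat.card (cz x) := (Nat.card_coe_set_eq _).symm
  rw [hset, Nat.card_coe_set_eq, mul_assoc]
  omega

theorem tori_eq_union (x : ↥(Cfsg.Sz F m)) {z : ↥(Cfsg.Sz F m)} (hz : z ^ 4 ≠ 1) (hxz : x ∈ nz z) :
    cz z ∈ TorAt x (2 ^ (2 * m + 1) - 1) ∪ (TorAt x (2 ^ (2 * m + 1) + 2 ^ (m + 1) + 1) ∪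
      TorAt x (2 ^ (2 * m + 1) - 2 ^ (m + 1) + 1)) := by
  rcases semi_type c hz with ⟨-, hk | hk⟩ | ⟨-, hk, -⟩
  · exact Or.inr (Or.inl ⟨⟨z, hz, rfl, hk⟩, hxz⟩)
  · exact Or.inr (Or.inr ⟨⟨z, hz, rfl, hk⟩, hxz⟩)
  · exact Or.inl ⟨⟨z, hz, rfl, hk⟩, hxz⟩

theorem card_sol_two (hp : (2 * m + 1).Prime) {x : ↥(Cfsg.Sz F m)} (hxU : x ∈ uSub c) (hx1 : x ≠ 1) :
    ∃ eT : ℕ → ℕ, (∀ k, ∀ z : ↥(Cfsg.Sz F m), z ^ 4 ≠ 1 → Nat.card (cz z) = k → Nat.card (nz z) = eT k * k) ∧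
    Nat.card (Sol x) = Fintype.card F ^ 2 * (Fintype.card F - 1) +
      (Nat.card (TorAt x (2 ^ (2 * m + 1) - 1)) * (eT (2 ^ (2 * m + 1) - 1) * (2 ^ (2 * m + 1) - 1 - 1)) +
      (Nat.card (TorAt x (2 ^ (2 * m + 1) + 2 ^ (m + 1) + 1)) *
          (eT (2 ^ (2 * m + 1) + 2 ^ (m + 1) + 1) * (2 ^ (2 * m + 1) + 2 ^ (m + 1) + 1 - 1)) +
       Nat.card (TorAt x (2 ^ (2 * m + 1) - 2 ^ (m + 1) + 1)) *
          (eT (2 ^ (2 * m + 1) - 2 ^ (m + 1) + 1) * (2 ^ (2 * m + 1) - 2 ^ (m + 1) + 1 - 1)))) := by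
  classical
  letI : Fintype (Subgroup ↥(Cfsg.Sz F m)) := Fintype.ofFinite _
  set k1 := 2 ^ (2 * m + 1) - 1 with hk1
  set k2 := 2 ^ (2 * m + 1) + 2 ^ (m + 1) + 1 with hk2
  set k3 := 2 ^ (2 * m + 1) - 2 ^ (m + 1) + 1 with hk3
  obtain ⟨hne1, hne2, hne3, -, -⟩ := tori_sizes c
  let eT : ℕ → ℕ := fun k => if k = k1 then 2 else 4
  have heT : ∀ k, ∀ z : ↥(Cfsg.Sz F m), z ^ 4 ≠ 1 → Nat.card (cz z) = k →
      Nat.card (nz z) = eT k * k := by
    rintro k z hz rfl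
    rcases semi_type c hz with ⟨hf, hk⟩ | ⟨hf, hk, -⟩ <;>
      rcases semi_normalizer c hz with ⟨hf', hn⟩ | ⟨hf', hn⟩
    · rw [hn]
      have : Nat.card (cz z) ≠ k1 := by rcases hk with e | e <;> rw [e] <;> omega
      simp only [eT, if_neg this]
    · exact absurd hf hf'
    · exact absurd hf' hf
    · rw [hn]
      simp only [eT, if_pos (hk.trans hk1.symm)]
  refine ⟨eT, heT, ?_⟩
  set B : Set ↥(Cfsg.Sz F m) := ↑(bor F m) with hB
  let piece : Subgroup ↥(Cfsg.Sz F m) → Set ↥(Cfsg.Sz F m) := fun A =>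
    (Subgroup.normalizer (A : Set ↥(Cfsg.Sz F m)) : Set ↥(Cfsg.Sz F m)) \ B
  let T : ℕ → Finset (Subgroup ↥(Cfsg.Sz F m)) := fun k => Finset.univ.filter fun A => A ∈ TorAt x k
  have hxo : x • pt (F := F) m none = pt m none := mem_bor_of_uSub c hxU
  have hx4 := uSub_pow_four c hxU
  have hset : Sol x = B ∪ ⋃ A ∈ T k1 ∪ (T k2 ∪ T k3), piece A := by
    ext y
    rw [mem_sol_iff c hp]
    simp only [Set.mem_union, Set.mem_iUnion, Finset.mem_union, T, Finset.mem_filter, Finset.mem_univ,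
      true_and]
    constructor
    · rintro (⟨o, ho, hyo⟩ | ⟨z, hz, hxz, hyz⟩)
      · obtain ⟨o', -, huniq⟩ := uni_fix c hx4 hx1
        rw [huniq o ho, ← huniq _ hxo] at hyo
        exact Or.inl hyo
      · by_cases hyB : y ∈ B
        · exact Or.inl hyB
        · exact Or.inr ⟨cz z, tori_eq_union c x hz hxz, hyz, hyB⟩
    · rintro (hy | ⟨A, hA, hy, -⟩)
      · exact Or.inl ⟨_, hxo, hy⟩
      · right
        rcases hA with ⟨⟨z, hz, rfl, -⟩, hxz⟩ | ⟨⟨z, hz, rfl, -⟩, hxz⟩ | ⟨⟨z, hz, rfl, -⟩, hxz⟩ <;>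
          exact ⟨z, hz, hxz, hy⟩
  have hxA : ∀ z : ↥(Cfsg.Sz F m), z ^ 4 ≠ 1 → x ∉ cz z := fun z hz h => ((semi_cz c hz).2.2 x h hx1).1 hx4
  have hpiece : ∀ k, ∀ A ∈ TorAt x k, (piece A).ncard = eT k * (k - 1) := by
    rintro k A ⟨⟨z, hz, rfl, hk⟩, hxz⟩
    have hb := card_nz_inf_bor c hz hxz hxU hx1
    have hn := heT k z hz hk
    rw [hn, hk] at hb
    have hk0 : 0 < k := hk ▸ Nat.card_pos
    have hH := Nat.eq_of_mul_eq_mul_right hk0 hb
    have h := Set.ncard_inter_add_ncard_sdiff_eq_ncard (nz z : Set ↥(Cfsg.Sz F m)) B (Set.toFinite _)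
    have e1 : ((nz z : Set ↥(Cfsg.Sz F m)) ∩ B).ncard = eT k := (Nat.card_coe_set_eq _).symm.trans hH
    have e2 : (nz z : Set ↥(Cfsg.Sz F m)).ncard = eT k * k := (Nat.card_coe_set_eq _).symm.trans hn
    rw [e1, e2] at h
    show ((nz z : Set ↥(Cfsg.Sz F m)) \ B).ncard = _
    rw [Nat.mul_sub_one]
    omega
  have hdisj : ∀ A ∈ T k1 ∪ (T k2 ∪ T k3), ∀ A' ∈ T k1 ∪ (T k2 ∪ T k3), A ≠ A' →
      Disjoint (piece A) (piece A') := by
    intro A hA A' hA' hne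
    simp only [Finset.mem_union, T, Finset.mem_filter, Finset.mem_univ, true_and] at hA hA'
    obtain ⟨z, hz, rfl, hxz⟩ : ∃ z, z ^ 4 ≠ 1 ∧ A = cz z ∧ x ∈ nz z := by
      rcases hA with ⟨⟨z, hz, rfl, -⟩, hxz⟩ | ⟨⟨z, hz, rfl, -⟩, hxz⟩ | ⟨⟨z, hz, rfl, -⟩, hxz⟩ <;>
        exact ⟨z, hz, rfl, hxz⟩
    obtain ⟨z', hz', rfl, hxz'⟩ : ∃ z', z' ^ 4 ≠ 1 ∧ A' = cz z' ∧ x ∈ nz z' := by
      rcases hA' with ⟨⟨z, hz, rfl, -⟩, hxz⟩ | ⟨⟨z, hz, rfl, -⟩, hxz⟩ | ⟨⟨z, hz, rfl, -⟩, hxz⟩ <;>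
        exact ⟨z, hz, rfl, hxz⟩
    rw [Set.disjoint_left]
    rintro y ⟨hy, hyB⟩ ⟨hy', -⟩
    have hcomm := commute_of_compl c hz (H := nz z ⊓ nz z') inf_le_left
      (fun w hw hwA => inter_trivial c hz hz' hne hwA hw.2)
      (a := y) (b := x) ⟨hy, hy'⟩ ⟨hxz, hxz'⟩
    exact hyB (mem_bor_of_uSub c (cz_uG c hxU hx1 (Subgroup.mem_centralizer_singleton_iff.2 hcomm)))
  have hBdisj : Disjoint B (⋃ A ∈ T k1 ∪ (T k2 ∪ T k3), piece A) := by
    rw [Set.disjoint_left]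
    intro y hy h
    simp only [Set.mem_iUnion] at h
    obtain ⟨A, -, -, h'⟩ := h
    exact h' hy
  have hTdisj : ∀ k k', k ≠ k' → Disjoint (T k) (T k') := by
    intro k k' hne
    rw [Finset.disjoint_left]
    intro A hA hA'
    simp only [T, Finset.mem_filter, Finset.mem_univ, true_and] at hA hA'
    obtain ⟨⟨-, -, -, hk⟩, -⟩ := hA
    obtain ⟨⟨-, -, -, hk'⟩, -⟩ := hA'
    exact hne (hk.symm.trans hk')
  have hunion : (⋃ A ∈ T k1 ∪ (T k2 ∪ T k3), piece A).ncard = ∑ A ∈ T k1 ∪ (T k2 ∪ T k3), (piece A).ncard := by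
    have e : (⋃ A ∈ T k1 ∪ (T k2 ∪ T k3), piece A) =
        (((T k1 ∪ (T k2 ∪ T k3)).biUnion fun A => (piece A).toFinset) : Set ↥(Cfsg.Sz F m)) := by
      ext y; simp
    rw [e, Set.ncard_coe_finset, Finset.card_biUnion]
    · exact Finset.sum_congr rfl fun A _ => (Set.ncard_eq_toFinset_card' _).symm
    · intro A hA A' hA' hne
      exact Set.disjoint_toFinset.2 (hdisj A hA A' hA' hne)
  have hsum : ∀ k, ∑ A ∈ T k, (piece A).ncard = Nat.card (TorAt x k) * (eT k * (k - 1)) := by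
    intro k
    rw [Finset.sum_congr rfl (fun A hA => hpiece k A (by simpa [T] using hA)), Finset.sum_const,
      smul_eq_mul, Nat.card_eq_fintype_card, ← Set.toFinset_card]
    congr 2
    ext A; simp [T]
  have hB' : B.ncard = Fintype.card F ^ 2 * (Fintype.card F - 1) :=
    (Nat.card_coe_set_eq _).symm.trans (card_stab c _)
  rw [hset, Nat.card_coe_set_eq, Set.ncard_union_eq hBdisj, hunion, hB',
    Finset.sum_union, Finset.sum_union (hTdisj k2 k3 (by omega)), hsum, hsum, hsum]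
  rw [Finset.disjoint_union_right]
  exact ⟨hTdisj k1 k2 (by omega), hTdisj k1 k3 (by omega)⟩

theorem torAt_count (hp : (2 * m + 1).Prime) {x : ↥(Cfsg.Sz F m)} {k e : ℕ}
    (hk : k ∈ ({2 ^ (2 * m + 1) - 1, 2 ^ (2 * m + 1) + 2 ^ (m + 1) + 1,
      2 ^ (2 * m + 1) - 2 ^ (m + 1) + 1} : Set ℕ))
    (he : ∀ z : ↥(Cfsg.Sz F m), z ^ 4 ≠ 1 → Nat.card (cz z) = k → Nat.card (nz z) = e * k) :
    (orderOf x = 2 → Nat.card (TorAt x k) * e = Fintype.card F ^ 2) ∧
    (orderOf x = 4 → Nat.card (TorAt x k) * e = Fintype.card F * (e - 2)) := by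
  obtain ⟨hne1, hne2, hne3, -, -⟩ := tori_sizes c
  obtain ⟨x0, y0, hx0, hy0, -, -, -, hcx, hcy⟩ := exists_tori c
  obtain ⟨k0, hk0, hk1'⟩ := c.exists_k0
  have hu : Units.mk0 k0 hk0 ≠ 1 := fun e => hk1' (congrArg Units.val e)
  have hsemi_free : ∀ w : ↥(Cfsg.Sz F m), IsFree w → w ^ 4 ≠ 1 := fun w hw e => by
    obtain ⟨o, ho, -⟩ := uni_fix c e (isFree_ne_one hw)
    exact hw o ho
  obtain ⟨z, hz, hkz⟩ : ∃ z : ↥(Cfsg.Sz F m), z ^ 4 ≠ 1 ∧ Nat.card (cz z) = k := by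
    simp only [Set.mem_insert_iff, Set.mem_singleton_iff] at hk
    rcases hk with rfl | rfl | rfl
    · refine ⟨tHom c (Units.mk0 k0 hk0), fun e => hu ?_, by rw [cz_tHom c hu, card_T c, c.hF]⟩
      have e' : Units.mk0 k0 hk0 ^ 4 = 1 := tHom_injective c (by rw [map_pow, e, map_one])
      have e'' : k0 ^ 4 = 1 := by simpa using congrArg Units.val e'
      refine Units.ext (sq_eq_one' (sq_eq_one' ?_))
      rw [← pow_mul]; exact e''
    · exact ⟨x0, hsemi_free _ hx0, hcx⟩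
    · exact ⟨y0, hsemi_free _ hy0, hcy⟩
  have hkpos : 0 < k := hkz ▸ Nat.card_pos
  have hN := he z hz hkz
  set q := Fintype.card F with hq
  have h8 : 8 ≤ q := c.eight_le
  have hG := card_sz c
  rw [← hq] at hG
  constructor <;> intro hx
  · have hi := incidence c (Or.inl rfl) hx hz hkz
    rw [card_order c 2 (Or.inl rfl), (card_order_uSub c).1, ← hq, hN, inv_count c hz, hkz, hG] at hi
    have hpos : 0 < (q ^ 2 + 1) * (q - 1) * k := by
      have : 0 < q - 1 := by omega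
      positivity
    refine Nat.eq_of_mul_eq_mul_right hpos ?_
    calc Nat.card (TorAt x k) * e * ((q ^ 2 + 1) * (q - 1) * k)
        = Nat.card (TorAt x k) * ((q ^ 2 + 1) * (q - 1)) * (e * k) := by ring
      _ = _ := by rw [hi]; ring
  · have hi := incidence c (Or.inr rfl) hx hz hkz
    have h4 := four_count c hz
    rw [hN, hkz] at h4
    have hc : Nat.card {y // y ∈ nz z ∧ orderOf y = 4} = (e - 2) * k := by
      rw [Nat.sub_mul]; omega
    rw [card_order c 4 (Or.inr rfl), (card_order_uSub c).2, ← hq, hN, hc, hG] at hi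
    have hqq : q ^ 2 - q = q * (q - 1) := by rw [Nat.mul_sub_one, sq]
    rw [hqq] at hi
    have hpos : 0 < (q ^ 2 + 1) * (q * (q - 1)) * k := by
      have : 0 < q - 1 := by omega
      positivity
    refine Nat.eq_of_mul_eq_mul_right hpos ?_
    calc Nat.card (TorAt x k) * e * ((q ^ 2 + 1) * (q * (q - 1)) * k)
        = Nat.card (TorAt x k) * ((q ^ 2 + 1) * (q * (q - 1))) * (e * k) := by ring
      _ = _ := by rw [hi]; ring

theorem main (hp : (2 * m + 1).Prime) (x : ↥(Cfsg.Sz F m)) :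
    (orderOf x = 2 → Nat.card (Sol x) = (2 ^ (2 * m + 1)) ^ 2 * (4 * 2 ^ (2 * m + 1) - 3)) ∧
    (orderOf x = 4 → Nat.card (Sol x) = (2 ^ (2 * m + 1)) ^ 2 * (2 ^ (2 * m + 1) + 3)) ∧
    (x ≠ 1 → orderOf x ∣ 2 ^ (2 * m + 1) - 1 →
      Nat.card (Sol x) = 2 * (2 ^ (2 * m + 1)) ^ 2 * (2 ^ (2 * m + 1) - 1)) ∧
    (x ≠ 1 → orderOf x ∣ 2 ^ (2 * m + 1) + 2 ^ (m + 1) + 1 →
      Nat.card (Sol x) = 4 * (2 ^ (2 * m + 1) + 2 ^ (m + 1) + 1)) ∧
    (x ≠ 1 → orderOf x ∣ 2 ^ (2 * m + 1) - 2 ^ (m + 1) + 1 →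
      Nat.card (Sol x) = 4 * (2 ^ (2 * m + 1) - 2 ^ (m + 1) + 1)) := by
  classical
  obtain ⟨hne1, hne2, hne3, hr, hr4⟩ := tori_sizes c
  have hF := c.hF
  set q := 2 ^ (2 * m + 1) with hq
  set r := 2 ^ (m + 1) with hrdef
  have hq2 : 2 ∣ q := dvd_pow_self 2 (by omega)
  have hr2 : 2 ∣ r := dvd_pow_self 2 (by omega)
  have hprod : (q + r + 1) * (q - r + 1) = q ^ 2 + 1 := by
    have hrr : r * r = 2 * q := by rw [hrdef, hq, ← pow_add, ← pow_succ']; congr 1; omega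
    obtain ⟨j, hj⟩ : ∃ j, q = r + j := ⟨q - r, by omega⟩
    rw [hj, Nat.add_sub_cancel_left]
    rw [hj] at hrr
    nlinarith
  have hUtwo : orderOf x = 2 ∨ orderOf x = 4 → ∃ g : ↥(Cfsg.Sz F m),
      g⁻¹ * x * g ∈ uSub c ∧ orderOf (g⁻¹ * x * g) = orderOf x ∧
      Nat.card (Sol x) = Nat.card (Sol (g⁻¹ * x * g)) := by
    intro h
    obtain ⟨g, hg⟩ := uni_conj c (x := x) (by
      rw [← orderOf_dvd_iff_pow_eq_one]; rcases h with e | e <;> rw [e]; norm_num)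
    refine ⟨g, hg, ?_, ?_⟩
    · have := MulEquiv.orderOf_eq (MulAut.conj g⁻¹) x
      rwa [MulAut.conj_apply, inv_inv] at this
    · have := card_sol_conj c g (g⁻¹ * x * g)
      rwa [show g * (g⁻¹ * x * g) * g⁻¹ = x by group] at this
  -- a prime dividing two torus orders
  have hcop : ∀ p : ℕ, p.Prime → ∀ k, (k = q + r + 1 ∨ k = q - r + 1) → p ∣ k →
      ¬ p ∣ q - 1 ∧ p ≠ 2 ∧ (p ∣ q + r + 1 → p ∣ q - r + 1 → False) := by
    intro p hpp k hk hpk
    have hd : p ∣ Fintype.card F ^ 2 + 1 := by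
      rw [hF, ← hprod]
      rcases hk with rfl | rfl
      · exact hpk.trans (dvd_mul_right _ _)
      · exact hpk.trans (dvd_mul_left _ _)
    obtain ⟨h2, h3, -⟩ := prime_facts c hpp hd
    rw [hF] at h3
    refine ⟨h3, h2, fun ha hb => h2 ?_⟩
    have hd2 : p ∣ 2 ^ (m + 2) := by
      have := Nat.dvd_sub ha hb
      rwa [show q + r + 1 - (q - r + 1) = 2 ^ (m + 2) by rw [pow_succ, ← hrdef]; omega] at this
    exact (Nat.prime_dvd_prime_iff_eq hpp Nat.prime_two).1 (hpp.dvd_of_dvd_pow hd2)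
  have hsemi : ∀ k, (k = q - 1 ∨ k = q + r + 1 ∨ k = q - r + 1) → x ≠ 1 → orderOf x ∣ k →
      x ^ 4 ≠ 1 ∧ Nat.card (cz x) = k := by
    intro k hk hx1 hd
    obtain ⟨p, hpp, hpd⟩ := Nat.exists_prime_and_dvd (n := orderOf x)
      (fun e => hx1 (orderOf_eq_one_iff.1 e))
    have hkodd : ¬ 2 ∣ k := by omega
    have hp2 : p ≠ 2 := fun e => hkodd (e ▸ hpd.trans hd)
    have hx4 : x ^ 4 ≠ 1 := fun e => by
      have h' := hpd.trans (orderOf_dvd_of_pow_eq_one e)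
      exact hp2 ((Nat.prime_dvd_prime_iff_eq hpp Nat.prime_two).1 (hpp.dvd_of_dvd_pow (m := 2) (n := 2) h'))
    refine ⟨hx4, ?_⟩
    have hpc : p ∣ Nat.card (cz x) := hpd.trans (by
      rw [← Subgroup.orderOf_mk x (mem_cz_self x)]; exact orderOf_dvd_natCard _)
    rcases semi_type c hx4 with ⟨-, hc⟩ | ⟨-, hc, -⟩
    · obtain ⟨hn1, -, hn23⟩ := hcop p hpp _ hc hpc
      rcases hk with rfl | rfl | rfl
      · exact absurd (hpd.trans hd) hn1
      · exact hc.resolve_right fun e => hn23 (hpd.trans hd) (e ▸ hpc)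
      · exact hc.resolve_left fun e => hn23 (e ▸ hpc) (hpd.trans hd)
    · rcases hk with rfl | hk
      · exact hc
      · exact absurd (hc ▸ hpc) (hcop p hpp k hk (hpd.trans hd)).1
  have htwo : ∀ y : ↥(Cfsg.Sz F m), y ∈ uSub c → orderOf y = 2 ∨ orderOf y = 4 →
      (orderOf y = 2 → Nat.card (Sol y) = q ^ 2 * (4 * q - 3)) ∧
      (orderOf y = 4 → Nat.card (Sol y) = q ^ 2 * (q + 3)) := by
    intro y hy ho
    have hy1 : y ≠ 1 := fun e => by rw [e, orderOf_one] at ho; omega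
    obtain ⟨eT, heT, hS⟩ := card_sol_two c hp hy hy1
    rw [hF] at hS
    obtain ⟨A1, B1⟩ := torAt_count c hp (x := y) (k := q - 1) (e := eT (q - 1)) (Or.inl rfl) (heT _)
    obtain ⟨A2, B2⟩ := torAt_count c hp (x := y) (k := q + r + 1) (e := eT (q + r + 1))
      (Or.inr (Or.inl rfl)) (heT _)
    obtain ⟨A3, B3⟩ := torAt_count c hp (x := y) (k := q - r + 1) (e := eT (q - r + 1))
      (Or.inr (Or.inr rfl)) (heT _)
    rw [← hq, ← hrdef] at hS
    obtain ⟨j, hj⟩ : ∃ j, q = r + j := ⟨q - r, by omega⟩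
    obtain ⟨i, hi⟩ : ∃ i, q = i + 2 := ⟨q - 2, by omega⟩
    have s1 : q - 1 - 1 = i := by omega
    have s2 : q + r + 1 - 1 = q + r := by omega
    have s3 : q - r + 1 - 1 = j := by omega
    have s4 : q - 1 = i + 1 := by omega
    refine ⟨fun h => ?_, fun h => ?_⟩
    · rw [hS, ← mul_assoc (Nat.card _) (eT (q - 1)), A1 h, ← mul_assoc (Nat.card _) (eT (q + r + 1)),
        A2 h, ← mul_assoc (Nat.card _) (eT (q - r + 1)), A3 h, hF, ← mul_add, ← mul_add, ← mul_add]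
      congr 1
      omega
    · obtain ⟨x0, y0, hx0, hy0, -, hN0, hN1, hcx, hcy⟩ := exists_tori c
      obtain ⟨k0, hk0, hk1'⟩ := c.exists_k0
      have hfree4 : ∀ w : ↥(Cfsg.Sz F m), IsFree w → w ^ 4 ≠ 1 := fun w hw e => by
        obtain ⟨o, ho, -⟩ := uni_fix c e (isFree_ne_one hw)
        exact hw o ho
      have e2 : eT (q + r + 1) = 4 := by
        have := heT _ x0 (hfree4 _ hx0) hcx
        rw [hN0, hcx] at this
        exact (Nat.eq_of_mul_eq_mul_right (by omega) this).symm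
      have e3 : eT (q - r + 1) = 4 := by
        have := heT _ y0 (hfree4 _ hy0) hcy
        rw [hN1, hcy] at this
        exact (Nat.eq_of_mul_eq_mul_right (by omega) this).symm
      have hu : Units.mk0 k0 hk0 ≠ 1 := fun e => hk1' (congrArg Units.val e)
      have e1 : eT (q - 1) = 2 := by
        have h4 : tHom c (Units.mk0 k0 hk0) ^ 4 ≠ 1 := fun e => hu (by
          have e' : Units.mk0 k0 hk0 ^ 4 = 1 := tHom_injective c (by rw [map_pow, e, map_one])
          have e'' : k0 ^ 4 = 1 := by simpa using congrArg Units.val e'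
          refine Units.ext (sq_eq_one' (sq_eq_one' ?_))
          rw [← pow_mul]; exact e'')
        have hc : Nat.card (cz (tHom c (Units.mk0 k0 hk0))) = q - 1 := by rw [cz_tHom c hu, card_T c, hF]
        have := heT _ _ h4 hc
        rcases semi_normalizer c h4 with ⟨hf, -⟩ | ⟨-, hn⟩
        · exact absurd (tHom_smul_inf c _) (hf _)
        · rw [hn, hc] at this
          exact (Nat.eq_of_mul_eq_mul_right (by omega) this).symm
      rw [hS, ← mul_assoc (Nat.card _) (eT (q - 1)), B1 h, ← mul_assoc (Nat.card _) (eT (q + r + 1)),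
        B2 h, ← mul_assoc (Nat.card _) (eT (q - r + 1)), B3 h, hF, e1, e2, e3, s1, s2, s3, s4]
      obtain ⟨Q, hQ⟩ : ∃ Q, q = Q := ⟨q, rfl⟩
      rw [hQ] at hi hj ⊢
      norm_num
      subst hi
      nlinarith
  refine ⟨fun h => ?_, fun h => ?_, fun hx1 hd => ?_, fun hx1 hd => ?_, fun hx1 hd => ?_⟩
  · obtain ⟨g, hgU, hgo, hgS⟩ := hUtwo (Or.inl h)
    rw [hgS]; exact (htwo _ hgU (Or.inl (hgo.trans h))).1 (hgo.trans h)
  · obtain ⟨g, hgU, hgo, hgS⟩ := hUtwo (Or.inr h)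
    rw [hgS]; exact (htwo _ hgU (Or.inr (hgo.trans h))).2 (hgo.trans h)
  · obtain ⟨hx4, hk⟩ := hsemi (q - 1) (Or.inl rfl) hx1 hd
    rcases semi_cases c hx4 with hf | ⟨k, h, h1, rfl⟩
    · exfalso
      rcases semi_type c hx4 with ⟨-, hc⟩ | ⟨hn, -, -⟩
      · rcases hc with e | e <;> omega
      · exact hn hf
    · rw [card_sol_conj c, card_sol_torus c hp h1, hF]
  · obtain ⟨hx4, hk⟩ := hsemi (q + r + 1) (Or.inr (Or.inl rfl)) hx1 hd
    rcases semi_type c hx4 with ⟨hf, -⟩ | ⟨-, hk', -⟩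
    · rw [card_sol_free c hp hf, hk]
    · omega
  · obtain ⟨hx4, hk⟩ := hsemi (q - r + 1) (Or.inr (Or.inr rfl)) hx1 hd
    rcases semi_type c hx4 with ⟨hf, -⟩ | ⟨-, hk', -⟩
    · rw [card_sol_free c hp hf, hk]
    · omega

end Cfsg.Agent.Lib.Suz.Solub
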