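import Cfsg.Agent.Lib.Suz.Classify.Main

/-!
The normalisers of the maximal tori of the Suzuki group and the elements of 2-power order in them.
-/

set_option autoImplicit false

namespace Cfsg.Agent.Lib.Suz.Solub

open MulAction Cfsg.Agent.Lib.Suz Cfsg.Agent.Lib.Suz.Classify

variable {F : Type*} [Field F] [Fintype F] [CharP F 2] {m : ℕ}

/-- The normaliser of a centraliser. -/
abbrev nz (z : ↥(Cfsg.Sz F m)) : Subgroup ↥(Cfsg.Sz F m) :=
  Subgroup.normalizer (cz z : Set ↥(Cfsg.Sz F m))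

variable (c : Ctx F m)

include c

theorem norm_data {z : ↥(Cfsg.Sz F m)} (hz : z ^ 4 ≠ 1) :
    ∃ e, ((e = 2 ∧ ¬ IsFree z) ∨ (e = 4 ∧ IsFree z)) ∧ Nat.card (nz z) = e * Nat.card (cz z) ∧
      ((cz z).subgroupOf (nz z)).index = e ∧ (∀ y ∈ nz z, y ^ 4 ∈ cz z) := by
  have hle : cz z ≤ nz z := Subgroup.le_normalizer
  have hpos : 0 < Nat.card (cz z) := Nat.card_pos
  obtain ⟨e, he, hcard⟩ : ∃ e, ((e = 2 ∧ ¬ IsFree z) ∨ (e = 4 ∧ IsFree z)) ∧
      Nat.card (nz z) = e * Nat.card (cz z) := by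
    rcases semi_normalizer c hz with ⟨hf, h⟩ | ⟨hf, h⟩
    · exact ⟨4, Or.inr ⟨rfl, hf⟩, h⟩
    · exact ⟨2, Or.inl ⟨rfl, hf⟩, h⟩
  have hidx : ((cz z).subgroupOf (nz z)).index = e := by
    have h := ((cz z).subgroupOf (nz z)).card_mul_index
    rw [Nat.card_congr (Subgroup.subgroupOfEquivOfLe hle).toEquiv, hcard, mul_comm e] at h
    exact Nat.eq_of_mul_eq_mul_left hpos h
  refine ⟨e, he, hcard, hidx, fun y hy => ?_⟩
  haveI : ((cz z).subgroupOf (nz z)).Normal := Subgroup.normal_in_normalizer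
  have h := Subgroup.mem_subgroupOf.1 (Subgroup.pow_index_mem ((cz z).subgroupOf (nz z)) ⟨y, hy⟩)
  rw [hidx] at h
  simp only [SubgroupClass.coe_pow] at h
  rcases he with ⟨rfl, -⟩ | ⟨rfl, -⟩
  · have h2 := (cz z).pow_mem h 2
    rwa [← pow_mul] at h2
  · exact h

theorem index_two_or_four {z : ↥(Cfsg.Sz F m)} (hz : z ^ 4 ≠ 1) :
    ((cz z).subgroupOf (nz z)).index = 2 ∨ ((cz z).subgroupOf (nz z)).index = 4 := by
  obtain ⟨e, he, -, hidx, -⟩ := norm_data c hz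
  rcases he with ⟨rfl, -⟩ | ⟨rfl, -⟩
  · exact Or.inl hidx
  · exact Or.inr hidx

theorem mem_cz_of_semi {z y : ↥(Cfsg.Sz F m)} (hz : z ^ 4 ≠ 1) (hy : y ∈ nz z) (hy4 : y ^ 4 ≠ 1) :
    y ∈ cz z := by
  obtain ⟨-, -, -, -, hpow⟩ := norm_data c hz
  obtain ⟨-, -, hA⟩ := semi_cz c hz
  obtain ⟨-, -, hB⟩ := semi_cz c hy4
  rw [← (hA _ (hpow y hy) hy4).2, (hB _ ((cz y).pow_mem (mem_cz_self y) 4) hy4).2]
  exact mem_cz_self y

theorem cz_eq_of_semi_mem {z y : ↥(Cfsg.Sz F m)} (hz : z ^ 4 ≠ 1) (hy : y ∈ nz z) (hy4 : y ^ 4 ≠ 1) :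
    cz y = cz z :=
  ((semi_cz c hz).2.2 y (mem_cz_of_semi c hz hy hy4) (ne_one_of_pow_four hy4)).2

theorem inter_trivial {z z' : ↥(Cfsg.Sz F m)} (hz : z ^ 4 ≠ 1) (hz' : z' ^ 4 ≠ 1) (hne : cz z ≠ cz z')
    {w : ↥(Cfsg.Sz F m)} (hw : w ∈ cz z) (hw' : w ∈ nz z') : w = 1 := by
  by_contra h1
  obtain ⟨h4, hcz⟩ := (semi_cz c hz).2.2 w hw h1
  exact hne (hcz.symm.trans (cz_eq_of_semi_mem c hz' hw' h4))

theorem commute_of_compl {z : ↥(Cfsg.Sz F m)} (hz : z ^ 4 ≠ 1) {H : Subgroup ↥(Cfsg.Sz F m)}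
    (hH : H ≤ nz z) (hHA : ∀ w ∈ H, w ∈ cz z → w = 1) {a b : ↥(Cfsg.Sz F m)} (ha : a ∈ H) (hb : b ∈ H) :
    a * b = b * a := by
  haveI : ((cz z).subgroupOf (nz z)).Normal := Subgroup.normal_in_normalizer
  have hcomm : ∀ u v : (nz z) ⧸ ((cz z).subgroupOf (nz z)), u * v = v * u := by
    haveI : IsMulCommutative ((nz z) ⧸ ((cz z).subgroupOf (nz z))) := by
      rcases index_two_or_four c hz with h | h <;> rw [Subgroup.index_eq_card] at h
      · haveI : Fact (Nat.Prime 2) := ⟨Nat.prime_two⟩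
        haveI := isCyclic_of_prime_card h
        infer_instance
      · haveI : Fact (Nat.Prime 2) := ⟨Nat.prime_two⟩
        exact IsPGroup.isMulCommutative_of_card_eq_prime_sq (p := 2) h
    exact fun u v => IsMulCommutative.is_comm.comm u v
  have h := (QuotientGroup.eq).1 (hcomm (QuotientGroup.mk ⟨b, hH hb⟩) (QuotientGroup.mk ⟨a, hH ha⟩))
  rw [Subgroup.mem_subgroupOf] at h
  simp only [Subgroup.coe_mul, Subgroup.coe_inv] at h
  exact (inv_mul_eq_one.1 (hHA _ (mul_mem (inv_mem (mul_mem hb ha)) (mul_mem ha hb)) h)).symm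

theorem card_le_index {z : ↥(Cfsg.Sz F m)} (hz : z ^ 4 ≠ 1) {H : Subgroup ↥(Cfsg.Sz F m)}
    (hH : H ≤ nz z) (hHA : ∀ w ∈ H, w ∈ cz z → w = 1) :
    Nat.card H ≤ ((cz z).subgroupOf (nz z)).index := by
  rw [Subgroup.index_eq_card]
  refine Nat.card_le_card_of_injective (fun a : H => QuotientGroup.mk ⟨a.1, hH a.2⟩) fun a b e => ?_
  have h := QuotientGroup.eq.1 e
  rw [Subgroup.mem_subgroupOf] at h
  simp only [Subgroup.coe_mul, Subgroup.coe_inv] at h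
  exact Subtype.ext (inv_mul_eq_one.1 (hHA _ (mul_mem (inv_mem a.2) b.2) h))

theorem uSub_pow_four {u : ↥(Cfsg.Sz F m)} (hu : u ∈ uSub c) : u ^ 4 = 1 := four_of_fix_inf c hu

/-- A nontrivial torus element and an element of the normaliser outside the torus have no common
fixed point. -/
theorem no_common_fix {z : ↥(Cfsg.Sz F m)} (hz : z ^ 4 ≠ 1) {y w : ↥(Cfsg.Sz F m)} (hy : y ∈ nz z)
    (hyA : y ∉ cz z) (hw : w ∈ cz z) (hw1 : w ≠ 1) (hfy : y • pt (F := F) m none = pt m none)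
    (hfw : w • pt (F := F) m none = pt m none) : False := by
  obtain ⟨hw4, hczw⟩ := (semi_cz c hz).2.2 w hw hw1
  let y' : ↥(bor F m) := ⟨y, hfy⟩
  let w' : ↥(bor F m) := ⟨w, hfw⟩
  have hU : y * w * y⁻¹ * w⁻¹ ∈ uSub c := (tcoord_eq_one_iff c (y' * w' * y'⁻¹ * w'⁻¹)).1 (by
    rw [map_mul, map_mul, map_mul, map_inv, map_inv, mul_right_comm (tcoord c y'), mul_inv_cancel,
      one_mul, mul_inv_cancel])
  have hA : y * w * y⁻¹ * w⁻¹ ∈ cz z :=
    mul_mem ((Subgroup.mem_normalizer_iff.1 hy w).1 hw) (inv_mem hw)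
  have h1 : y * w * y⁻¹ * w⁻¹ = 1 := by
    by_contra hne
    exact ((semi_cz c hz).2.2 _ hA hne).1 (uSub_pow_four c hU)
  refine hyA ?_
  rw [← hczw, Subgroup.mem_centralizer_singleton_iff]
  exact mul_inv_eq_iff_eq_mul.1 (mul_inv_eq_one.1 h1)

theorem inv_count {z : ↥(Cfsg.Sz F m)} (hz : z ^ 4 ≠ 1) :
    Nat.card {y // y ∈ nz z ∧ orderOf y = 2} = Nat.card (cz z) := by
  haveI : Fact (Nat.Prime 2) := ⟨Nat.prime_two⟩
  obtain ⟨e, he, hcard, -, -⟩ := norm_data c hz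
  obtain ⟨-, hodd, hsemi⟩ := semi_cz c hz
  obtain ⟨⟨j, hjN⟩, hj⟩ := exists_prime_orderOf_dvd_card' (G := nz z) 2 (by
    rw [hcard]
    exact dvd_mul_of_dvd_left (by rcases he with ⟨rfl, -⟩ | ⟨rfl, -⟩ <;> norm_num) _)
  rw [Subgroup.orderOf_mk] at hj
  have hjj : j * j = 1 := by rw [← pow_two, ← hj, pow_orderOf_eq_one]
  have hnotA : ∀ y : ↥(Cfsg.Sz F m), orderOf y = 2 → y ∉ cz z := fun y hy hyA =>
    (hsemi y hyA (fun e1 => by rw [e1, orderOf_one] at hy; omega)).1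
      (pow_four_of_sq (by rw [← pow_two, ← hy, pow_orderOf_eq_one]))
  have hord : ∀ a : cz z, orderOf ((a : ↥(Cfsg.Sz F m)) * j) = 2 := fun a => by
    refine orderOf_eq_prime ?_ fun h1 => hnotA j hj ?_
    · have hinv := inverts c hz hj hjN a.2
      calc ((a : ↥(Cfsg.Sz F m)) * j) ^ 2
          = (a : ↥(Cfsg.Sz F m)) * (j * a * j⁻¹) * (j * j) := by rw [pow_two]; group
        _ = 1 := by rw [hinv, hjj, mul_one, mul_inv_cancel]
    · rw [eq_inv_of_mul_eq_one_right h1]; exact inv_mem a.2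
  let f : cz z → {y // y ∈ nz z ∧ orderOf y = 2} := fun a =>
    ⟨(a : ↥(Cfsg.Sz F m)) * j, mul_mem (Subgroup.le_normalizer a.2) hjN, hord a⟩
  refine (Nat.card_congr (Equiv.ofBijective f ⟨fun a b e => ?_, ?_⟩)).symm
  · exact Subtype.ext (mul_right_cancel (congrArg Subtype.val e))
  · rintro ⟨y, hyN, hy⟩
    have hmem : y * j ∈ cz z := by
      rw [Subgroup.mem_centralizer_singleton_iff]
      have h1 := inverts c hz hj hjN (mem_cz_self z)
      have h2 := inverts c hz hy hyN (inv_mem (mem_cz_self z))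
      rw [inv_inv] at h2
      refine mul_inv_eq_iff_eq_mul.1 ?_
      calc y * j * z * (y * j)⁻¹ = y * (j * z * j⁻¹) * y⁻¹ := by group
        _ = z := by rw [h1, h2]
    exact ⟨⟨y * j, hmem⟩, Subtype.ext (by simp [f, mul_assoc, hjj])⟩

theorem four_count {z : ↥(Cfsg.Sz F m)} (hz : z ^ 4 ≠ 1) :
    Nat.card {y // y ∈ nz z ∧ orderOf y = 4} + 2 * Nat.card (cz z) = Nat.card (nz z) := by
  classical
  obtain ⟨-, -, hsemi⟩ := semi_cz c hz
  have hle : cz z ≤ nz z := Subgroup.le_normalizer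
  have hsplit : ((nz z : Set ↥(Cfsg.Sz F m))) =
      ((cz z : Set ↥(Cfsg.Sz F m)) ∪ {y | y ∈ nz z ∧ orderOf y = 2}) ∪ {y | y ∈ nz z ∧ orderOf y = 4} := by
    ext y
    constructor
    · intro hy
      by_cases hA : y ∈ cz z
      · exact Or.inl (Or.inl hA)
      have h4 : y ^ 4 = 1 := by_contra fun h => hA (mem_cz_of_semi c hz hy h)
      obtain ⟨i, hi2, hi⟩ := (Nat.dvd_prime_pow Nat.prime_two).1
        (show orderOf y ∣ 2 ^ 2 from orderOf_dvd_of_pow_eq_one h4)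
      interval_cases i
      · exact absurd (by rw [orderOf_eq_one_iff.1 hi]; exact one_mem _) hA
      · exact Or.inl (Or.inr ⟨hy, hi⟩)
      · exact Or.inr ⟨hy, hi⟩
    · rintro ((h | h) | h)
      · exact hle h
      · exact h.1
      · exact h.1
  have hA4 : ∀ y ∈ cz z, y ≠ 1 → orderOf y ≠ 2 ∧ orderOf y ≠ 4 := fun y hy h1 =>
    ⟨fun e => (hsemi y hy h1).1 (pow_four_of_sq (by rw [← pow_two, ← e, pow_orderOf_eq_one])),
      fun e => (hsemi y hy h1).1 (orderOf_dvd_iff_pow_eq_one.1 e.dvd)⟩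
  have hd1 : Disjoint (cz z : Set ↥(Cfsg.Sz F m)) {y | y ∈ nz z ∧ orderOf y = 2} := by
    rw [Set.disjoint_left]
    rintro y hy ⟨-, h2⟩
    exact (hA4 y hy (fun e => by rw [e, orderOf_one] at h2; omega)).1 h2
  have hd2 : Disjoint ((cz z : Set ↥(Cfsg.Sz F m)) ∪ {y | y ∈ nz z ∧ orderOf y = 2})
      {y | y ∈ nz z ∧ orderOf y = 4} := by
    rw [Set.disjoint_left]
    rintro y (hy | ⟨-, h2⟩) ⟨-, h4⟩
    · exact (hA4 y hy (fun e => by rw [e, orderOf_one] at h4; omega)).2 h4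
    · omega
  have h := congrArg Set.ncard hsplit
  rw [Set.ncard_union_eq hd2, Set.ncard_union_eq hd1] at h
  rw [← Nat.card_coe_set_eq, ← Nat.card_coe_set_eq, ← Nat.card_coe_set_eq, ← Nat.card_coe_set_eq] at h
  have h2 : Nat.card ↥({y : ↥(Cfsg.Sz F m) | y ∈ nz z ∧ orderOf y = 2}) = Nat.card (cz z) :=
    inv_count c hz
  have e1 : Nat.card ↥(nz z : Set ↥(Cfsg.Sz F m)) = Nat.card (nz z) := rfl
  have e2 : Nat.card ↥(cz z : Set ↥(Cfsg.Sz F m)) = Nat.card (cz z) := rfl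
  have e3 : Nat.card ↥({y : ↥(Cfsg.Sz F m) | y ∈ nz z ∧ orderOf y = 4}) =
      Nat.card {y // y ∈ nz z ∧ orderOf y = 4} := rfl
  omega

theorem cz_le_uSub_of_four {x : ↥(Cfsg.Sz F m)} (hx : x ∈ uSub c) (hx1 : x ≠ 1) : cz x ≤ uSub c :=
  cz_uG c hx hx1

/-- The elements of a torus normaliser fixing the fixed point of a 2-element `x` in it. -/
theorem card_nz_inf_bor {z x : ↥(Cfsg.Sz F m)} (hz : z ^ 4 ≠ 1) (hxN : x ∈ nz z) (hxU : x ∈ uSub c)
    (hx1 : x ≠ 1) :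
    Nat.card (nz z ⊓ bor F m : Subgroup ↥(Cfsg.Sz F m)) * Nat.card (cz z) = Nat.card (nz z) := by
  haveI : Fact (Nat.Prime 2) := ⟨Nat.prime_two⟩
  obtain ⟨e, he, hcard, hidx, hpow⟩ := norm_data c hz
  obtain ⟨-, hodd, hsemi⟩ := semi_cz c hz
  have hx4 := uSub_pow_four c hxU
  have hxA : x ∉ cz z := fun h => (hsemi x h hx1).1 hx4
  have hHA : ∀ w ∈ nz z ⊓ bor F m, w ∈ cz z → w = 1 := fun w hw hwA => by_contra fun h1 =>
    no_common_fix c hz hxN hxA hwA h1 (mem_bor_of_uSub c hxU) hw.2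
  have hle := card_le_index c hz (H := nz z ⊓ bor F m) inf_le_left hHA
  rw [hidx] at hle
  refine congrArg (· * Nat.card (cz z)) (le_antisymm hle ?_) |>.trans hcard.symm
  have hsub : nz z ⊓ cz x ≤ nz z ⊓ bor F m :=
    inf_le_inf_left _ fun w hw => mem_bor_of_uSub c (cz_uG c hxU hx1 hw)
  refine le_trans ?_ (Subgroup.card_le_of_le hsub)
  obtain ⟨i, hi2, hi⟩ := (Nat.dvd_prime_pow Nat.prime_two).1
    (show orderOf x ∣ 2 ^ 2 from orderOf_dvd_of_pow_eq_one hx4)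
  interval_cases i
  · exact absurd (orderOf_eq_one_iff.1 hi) hx1
  · have horb := orbit_card (nz z) x
    have hle' : Nat.card {y // ∃ h ∈ nz z, y = h * x * h⁻¹} ≤ Nat.card (cz z) := by
      rw [← inv_count c hz]
      refine Nat.card_le_card_of_injective (fun y => ⟨y.1, ?_⟩)
        fun a b hab => Subtype.ext (Subtype.mk.injEq _ _ _ _ ▸ hab)
      obtain ⟨h, hh, hy⟩ := y.2
      refine ⟨hy ▸ mul_mem (mul_mem hh hxN) (inv_mem hh), ?_⟩
      rw [hy, ← MulAut.conj_apply, MulEquiv.orderOf_eq]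
      simpa using hi
    rw [hcard] at horb
    have hpos : 0 < Nat.card (cz z) := Nat.card_pos
    by_contra hlt
    rw [not_le] at hlt
    have : Nat.card {y // ∃ h ∈ nz z, y = h * x * h⁻¹} *
        Nat.card (nz z ⊓ cz x : Subgroup ↥(Cfsg.Sz F m)) < e * Nat.card (cz z) := by
      calc _ ≤ Nat.card (cz z) * Nat.card (nz z ⊓ cz x : Subgroup ↥(Cfsg.Sz F m)) :=
            Nat.mul_le_mul_right _ hle'
        _ < Nat.card (cz z) * e := Nat.mul_lt_mul_of_pos_left hlt hpos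
        _ = _ := mul_comm _ _
    exact Nat.lt_irrefl _ (lt_of_eq_of_lt horb.symm this)
  · have hzp : Subgroup.zpowers x ≤ nz z ⊓ cz x := Subgroup.zpowers_le.2 ⟨hxN, mem_cz_self x⟩
    have h4 := Subgroup.card_le_of_le hzp
    rw [Nat.card_zpowers, hi] at h4
    rcases he with ⟨rfl, -⟩ | ⟨rfl, -⟩ <;> omega

end Cfsg.Agent.Lib.Suz.Solub
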